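/-! Words relating the presented Hall-Janko group to the group on 315 lines. -/

set_option autoImplicit false

namespace Cfsg.Agent.H47.G24J2

/-- images of the five generators, as words in the four generating reflections -/
def genImg : List (List Nat) :=
  [[0],
   [3,0,2,0,2,0,3],
   [3,0,2,0,3,0,3,0,2,0,3],
   [2,0,3,0,2,3,1,0,2,3,1,2,3,2,3,0,2,3,1,2,3,2,3,0,2,3,1,2,3,2,3,1,3,2,0,3,0,2],
   [1,3,1,2,0,3,1,2,3,1,0,2,3,1,2,3,2,3,0,2,3,1,2,3,2,3,0,2,3,1,2,3,2,3,1,3,2,1,3,0,2,1,3,1]]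

/-- preimages of the generators of a line stabiliser -/
def stabPre : List (List Nat) :=
  [[0],
   [0,1,0,1,0,2,3,2,4,3,2,1,0,1,2,3,2,1,4,3,2,1,3,2,3,4,3,2,1],
   [0,1,0,1,2,1,0,4,3,2,1,0,1,2,3,2,1,3,4,3,2,3],
   [2,3,2,3],
   [0,1,0,1,3,2,4,3,2,1,3,2,3,2,1,4,3,2,1,0,1,2,3,2,1],
   [0,1,0,1,3,2,4,3,2,1,0,3,2,1,0,3,2,1,4,3],
   [3,2,3,2,4,3],
   [0,1,3,2,1,0,1,0,4,3,2,1,3,2,3,2,1,0,1,2],
   [0,3,2,3],
   [2],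
   [0,2,1,0,3,4,3,2,1,0,1,3,2,3,4,3,2,1,0,1,0,3,2,1,3,2]]

/-- preimages of the four generating reflections -/
def genPre : List (List Nat) :=
  [[0],
   [0,1,0,1,0,2,3,2,4,3,2,1,0,1,2,3,2,1,4,3,2,1,3,2,3,4,3,2,1],
   [1,3,2,1,0,1,2,3],
   [3,2,1,0,3,2,1,3,2,3]]

end Cfsg.Agent.H47.G24J2
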