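import Cfsg.Agent.H16.J2Order
import Cfsg.Agent.H15.J2.Simple
import Cfsg.Agent.H47.G24J2.Data

/-! The presented Hall-Janko group is the group on 315 lines; maximality of a line stabiliser. -/

set_option autoImplicit false

namespace Cfsg.Agent.H47.G24J2

open Cfsg.Spor Cfsg.Agent.H16 Cfsg.Agent.H16.EnumData Cfsg.Agent.H16.CoxEnum Cfsg.Agent.H15.J2

/-- image word of a generator -/
def imgWord (x : J2U.Gen) : List Nat := genImg.getD (J2U.gens.idxOf x) []

/-- image of a generator -/
noncomputable def imgFun (x : J2U.Gen) : G315 := ⟨wPerm (imgWord x), wPerm_mem _⟩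

theorem wPerm_pow (u : List Nat) :
    ∀ m : ℕ, wPerm (List.replicate m u).flatten = wPerm u ^ m
  | 0 => by simp [wPerm]
  | m + 1 => by rw [List.replicate_succ, List.flatten_cons, wPerm_append, wPerm_pow u m, pow_succ']

theorem wPerm_nil : wPerm [] = 1 := by simp [wPerm]

theorem pair_ok (x y : J2U.Gen) :
    sameOn (List.replicate (coxLabel J2U.edges x y) (imgWord x ++ imgWord y)).flatten [] = true := by
  cases x <;> cases y <;> decide +kernel

/-- the first further relator -/
def rel0 : List Nat := imgWord .a ++ (List.replicate 4 (imgWord .d ++ imgWord .c)).flatten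

/-- the second further relator -/
def rel1 : List Nat :=
  (List.replicate 3 ((List.replicate 5 (imgWord .b ++ (imgWord .c ++ (imgWord .d ++
    (imgWord .c ++ imgWord .d))))).flatten ++ imgWord .e)).flatten

theorem rel_ok : sameOn rel0 [] = true ∧ sameOn rel1 [] = true := by decide +kernel

theorem imgFun_sq (x : J2U.Gen) : imgFun x * imgFun x = 1 := by
  refine Subtype.ext ?_
  have h := sameOn_sound (pair_ok x x)
  simp only [coxLabel, if_pos, List.replicate_one, List.flatten_cons, List.flatten_nil,
    List.append_nil, wPerm_nil] at h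
  rw [wPerm_append] at h
  exact h

theorem img_rels : ∀ r ∈ coxRelators J2U.edges ∪ {r | r ∈ J2U.extra},
    FreeGroup.lift imgFun r = 1 := by
  rintro r (⟨x, -, y, -, rfl⟩ | hr)
  · rw [map_pow, map_mul, FreeGroup.lift_apply_of, FreeGroup.lift_apply_of]
    refine Subtype.ext ?_
    have h := sameOn_sound (pair_ok x y)
    rw [wPerm_pow, wPerm_append, wPerm_nil] at h
    exact h
  · have hinv : ∀ x, (imgFun x)⁻¹ = imgFun x :=
      fun x => inv_eq_of_mul_eq_one_right (imgFun_sq x)
    have hr' : r ∈ J2U.extra := hr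
    simp only [J2U.extra, List.mem_cons, List.not_mem_nil, or_false] at hr'
    rcases hr' with rfl | rfl
    · rw [map_mul, map_inv, map_pow, map_mul, FreeGroup.lift_apply_of, FreeGroup.lift_apply_of,
        FreeGroup.lift_apply_of, ← inv_pow, mul_inv_rev, hinv, hinv]
      refine Subtype.ext ?_
      have h := sameOn_sound rel_ok.1
      rw [rel0, wPerm_append, wPerm_pow, wPerm_append, wPerm_nil] at h
      exact h
    · simp only [map_mul, map_pow, FreeGroup.lift_apply_of]
      refine Subtype.ext ?_
      have h := sameOn_sound rel_ok.2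
      simp only [rel1, wPerm_pow, wPerm_append, wPerm_nil] at h
      simp only [Subgroup.coe_pow, Subgroup.coe_mul, imgFun]
      simpa only [mul_assoc, Subgroup.coe_one] using h

/-- the homomorphism onto the group on lines -/
noncomputable def psi : J2U.Grp →* G315 := PresentedGroup.toGroup img_rels

/-- the word of the image of a word -/
def pushWord (w : List Nat) : List Nat := w.reverse.flatMap fun g => genImg.getD g []

theorem psi_val (g : Nat) : ((psi (J2U.val g) : G315) : P315) = wPerm (genImg.getD g []) := by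
  unfold J2U.val numGen
  split
  · rename_i x hx
    rw [psi, PresentedGroup.toGroup.of]
    show wPerm (imgWord x) = _
    rw [imgWord]
    obtain ⟨hg, hx'⟩ := List.getElem?_eq_some_iff.mp hx
    rw [← hx', J2U.gens_nodup.idxOf_getElem]
  · rename_i hx
    rw [map_one, List.getD_eq_default _ _ (by
      have h1 := List.getElem?_eq_none_iff.mp hx
      have h2 : J2U.gens.length = 5 := rfl
      have h3 : genImg.length = 5 := rfl
      omega), wPerm_nil]
    rfl

theorem psi_ev : ∀ w : List Nat, ((psi (EnumData.ev J2U.val w) : G315) : P315) = wPerm (pushWord w)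
  | [] => by simp [EnumData.ev, pushWord, wPerm_nil]
  | g :: w => by
    rw [EnumData.ev, map_mul, Subgroup.coe_mul, psi_ev w, psi_val, pushWord, pushWord, List.reverse_cons,
      List.flatMap_append, wPerm_append]
    simp

theorem genPre_ok : (List.range 4).all (fun g => sameOn (pushWord (genPre.getD g [])) [g]) = true := by
  decide +kernel

theorem psi_surjective : Function.Surjective psi := by
  rw [← MonoidHom.range_eq_top]
  refine Subgroup.map_injective G315.subtype_injective ?_
  rw [← MonoidHom.range_eq_map, G315.range_subtype]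
  refine le_antisymm (Subgroup.map_subtype_le _) ?_
  conv_lhs => rw [G315]
  rw [Subgroup.closure_le]
  rintro _ ⟨g, rfl⟩
  refine ⟨psi (EnumData.ev J2U.val (genPre.getD g [])), ⟨_, rfl⟩, ?_⟩
  show ((psi _ : G315) : P315) = _
  rw [psi_ev, sameOn_sound (List.all_eq_true.1 genPre_ok g (List.mem_range.2 g.isLt)), ← lPerm_gen]
  simp [wPerm]

theorem psi_bijective : Function.Bijective psi :=
  (Nat.bijective_iff_surjective_and_card _).mpr
    ⟨psi_surjective, J2Order.card_and_faithful.1.trans G315_card.symm⟩

/-- the presented group is the Hall-Janko group -/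
noncomputable def equivJ2 : J2U.Grp ≃* J2 :=
  (MulEquiv.ofBijective psi psi_bijective).trans j2Equiv.symm

/-! ### maximal subgroups -/

theorem sub_isCoatom : IsCoatom J2U.sub := by
  have hn : J2U.data.n = 100 := rfl
  refine ⟨fun h => ?_, fun K hK => ?_⟩
  · have h2 := J2U.index_sub
    rw [h, Subgroup.index_top] at h2
    omega
  · have hsub : J2U.sub ≤ Subgroup.closure
        {x | ∃ k ∈ J2U.subWords, EnumData.ev J2U.val (nthWord J2U.data.words k) = x} := J2U.sub_eq.le
    refine (J2U.theModel.eq_or_eq_top (sizes := [1, 63, 36]) hsub J2U.orbits_ok ?_ ?_ ?_ ?_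
      ?_ rfl ?_ K hK.le).resolve_left hK.ne'
    · intro i hi
      have h : allFrom (fun i => Nat.ble (bitField (J2U.labArr.get 60 i) 0 8).succ 3)
          J2U.data.n 0 = true := by decide +kernel
      exact Nat.le_of_ble_eq_true (allFrom_spec h i (Nat.zero_le _) (by omega))
    · intro l hl
      change l < 3 at hl
      interval_cases l
      exacts [J2U.rep_lt_0, J2U.rep_lt_1, J2U.rep_lt_2]
    · intro l hl
      change l < 3 at hl
      interval_cases l
      exacts [J2U.rep_lab_0, J2U.rep_lab_1, J2U.rep_lab_2]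
    · intro l hl
      change l < 3 at hl
      interval_cases l
      exacts [J2U.count_0, J2U.count_1, J2U.count_2]
    · decide +kernel
    · rw [hn]
      decide

theorem stab_eq_top {K : Subgroup P315} (hle : lvlGrp lvlGens1 ≤ K) (hK : K ≤ G315) {g : P315}
    (hg : g ∈ K) (hm : g base0 ≠ base0) : G315 ≤ K := by
  have hs := List.all_eq_true.1 sub_ok (g base0) (List.mem_range.2 (g base0).isLt)
  have hm' : Nat.beq (g base0 : ℕ) 304 = false := by
    rw [Bool.eq_false_iff]
    exact fun h => hm (Fin.ext (Nat.eq_of_beq_eq_true h))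
  simp only [hm', Bool.false_or, Bool.and_eq_true] at hs
  obtain ⟨hi, hl, hv, he⟩ := hs
  set w := subWords.getD (g base0 : ℕ) []
  set i := w.getD 0 0
  have hp := List.all_eq_true.1 prim_ok i (List.mem_range.2 (blt_lt hi))
  simp only [Bool.and_eq_true, List.all_eq_true, List.mem_range] at hp
  obtain ⟨hrv, hre, hpm⟩ := hp
  have hr : subReps.getD i 0 < 315 := by
    have : ∀ j < 5, subReps.getD j 0 < 315 := by decide +kernel
    exact this i (blt_lt hi)
  set r : Fin 315 := ⟨subReps.getD i 0, hr⟩
  have e1 : wPerm (repWord i) base0 = r := Fin.ext (by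
    rw [wPerm_apply hrv]; exact Nat.eq_of_beq_eq_true hre)
  have e2 : wPerm w.tail r = g base0 := Fin.ext (by
    rw [wPerm_apply hv]; exact Nat.eq_of_beq_eq_true he)
  have hrep : wPerm (repWord i) ∈ K := by
    have h1 : (wPerm w.tail)⁻¹ * g ∈ K := K.mul_mem (K.inv_mem (hle (wPerm_lvl hl))) hg
    have h2 : ((wPerm w.tail)⁻¹ * g)⁻¹ * wPerm (repWord i) ∈ lvlGrp lvlGens1 := by
      refine mem_stab0.2 ⟨G315.mul_mem (G315.inv_mem (hK h1)) (wPerm_mem _), ?_⟩
      rw [Equiv.Perm.mul_apply, e1, mul_inv_rev, inv_inv, Equiv.Perm.mul_apply, e2,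
        Equiv.Perm.coe_inv, Equiv.symm_apply_apply]
    simpa only [mul_inv_cancel_left] using K.mul_mem h1 (hle h2)
  intro σ hσ
  have hj := hpm (σ base0) (σ base0).isLt
  obtain ⟨hjv, hje⟩ := hj
  have hmem : wPerm (primLetters i ((primWords.getD i []).getD (σ base0 : ℕ) [])) ∈ K := by
    generalize (primWords.getD i []).getD (σ base0 : ℕ) [] = ps
    induction ps with
    | nil => simpa [primLetters, wPerm] using K.one_mem
    | cons s ps ih =>
      rw [primLetters, List.flatMap_cons, wPerm_append]
      refine K.mul_mem ?_ ih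
      split
      · rename_i hs
        refine hle (wPerm_lvl ?_)
        have hmem : lvlGens1.getD s 0 ∈ lvlGens1 := by
          rw [List.getD_eq_getElem?_getD, List.getElem?_eq_getElem (blt_lt hs), Option.getD_some]
          exact List.getElem_mem _
        simpa using hmem
      · exact hrep
  set τ := wPerm (primLetters i ((primWords.getD i []).getD (σ base0 : ℕ) []))
  have e : τ base0 = σ base0 :=
    Fin.ext (by rw [wPerm_apply hjv]; exact Nat.eq_of_beq_eq_true hje)
  have h3 : τ⁻¹ * σ ∈ lvlGrp lvlGens1 := by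
    refine mem_stab0.2 ⟨G315.mul_mem (G315.inv_mem (hK hmem)) hσ, ?_⟩
    rw [Equiv.Perm.mul_apply, ← e, Equiv.Perm.coe_inv, Equiv.symm_apply_apply]
  simpa using K.mul_mem hmem (hle h3)

/-- the preimage of the line stabiliser -/
noncomputable def lineStab : Subgroup J2U.Grp :=
  Subgroup.closure {x | ∃ w ∈ stabPre, EnumData.ev J2U.val w = x}

theorem stabPre_ok : stabPre.length = 11 ∧ lvlGens1.length = 11 ∧
    (List.range 11).all (fun i => sameOn (pushWord (stabPre.getD i [])) [lvlGens1.getD i 0]) = true := by
  decide +kernel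

theorem map_lineStab : lineStab.map (G315.subtype.comp psi) = lvlGrp lvlGens1 := by
  rw [lineStab, MonoidHom.map_closure, lvlGrp]
  congr 1
  have key : ∀ i, i < 11 → ((psi (EnumData.ev J2U.val (stabPre.getD i [])) : G315) : P315) =
      lPerm (lvlGens1.getD i 0) := by
    intro i hi
    rw [psi_ev, sameOn_sound (List.all_eq_true.1 stabPre_ok.2.2 i (List.mem_range.2 hi))]
    simp [wPerm]
  ext p
  constructor
  · rintro ⟨_, ⟨w, hw, rfl⟩, rfl⟩
    obtain ⟨i, hi, rfl⟩ := List.getElem_of_mem hw
    refine List.mem_map.2 ⟨lvlGens1.getD i 0, ?_, ?_⟩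
    · rw [List.getD_eq_getElem _ _ (by rw [stabPre_ok.2.1]; rw [stabPre_ok.1] at hi; exact hi)]
      exact List.getElem_mem _
    · rw [← List.getD_eq_getElem (d := []) _ hi]
      exact (key i (by rw [stabPre_ok.1] at hi; exact hi)).symm
  · intro hp
    obtain ⟨l, hl, rfl⟩ := List.mem_map.1 hp
    obtain ⟨i, hi, rfl⟩ := List.getElem_of_mem hl
    have hi' : i < 11 := by rw [stabPre_ok.2.1] at hi; exact hi
    refine ⟨EnumData.ev J2U.val (stabPre.getD i []), ⟨_, ?_, rfl⟩, ?_⟩
    · rw [List.getD_eq_getElem _ _ (by rw [stabPre_ok.1]; exact hi')]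
      exact List.getElem_mem _
    · rw [← List.getD_eq_getElem (d := 0) _ hi]
      exact key i hi'

theorem lineStab_isCoatom : IsCoatom lineStab := by
  have hinj : Function.Injective (G315.subtype.comp psi) :=
    G315.subtype_injective.comp psi_bijective.1
  refine ⟨fun h => ?_, fun K hK => ?_⟩
  · have h1 := map_lineStab
    rw [h, ← MonoidHom.range_eq_map, MonoidHom.range_comp, MonoidHom.range_eq_top.2 psi_surjective,
      ← MonoidHom.range_eq_map, G315.range_subtype] at h1
    have h2 := congrArg (fun K : Subgroup P315 => Nat.card K) h1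
    simp only [G315_card, stab_card] at h2
    omega
  · have hle : lvlGrp lvlGens1 ≤ K.map (G315.subtype.comp psi) :=
      map_lineStab ▸ Subgroup.map_mono hK.le
    have hK' : K.map (G315.subtype.comp psi) ≤ G315 := by
      rintro _ ⟨x, -, rfl⟩
      exact (psi x).2
    obtain ⟨x, hx, hx'⟩ := SetLike.exists_of_lt hK
    have hne : (G315.subtype.comp psi) x base0 ≠ base0 := fun h => hx' (by
      have hm : (G315.subtype.comp psi) x ∈ lvlGrp lvlGens1 := mem_stab0.2 ⟨(psi x).2, h⟩
      rw [← map_lineStab] at hm
      obtain ⟨y, hy, hxy⟩ := hm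
      exact hinj hxy ▸ hy)
    refine eq_top_iff.2 fun y _ => ?_
    obtain ⟨z, hz, hzy⟩ := stab_eq_top hle hK' (Subgroup.mem_map_of_mem _ hx) hne (psi y).2
    exact hinj hzy ▸ hz

end Cfsg.Agent.H47.G24J2
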