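import Cfsg.Agent.H16.G24Order
import Cfsg.Agent.H47.G24J2.J2Iso

/-! The Hall-Janko subgroup of the presented group G2(4) and the two-point stabilisers. -/

set_option autoImplicit false

namespace Cfsg.Agent.H47.G24J2

open Cfsg.Spor Cfsg.Agent.H16 Cfsg.Agent.H16.EnumData Cfsg.Agent.H16.CoxEnum

/-- the generators of the subgroup -/
def genMap : J2U.Gen → G24U.Gen
  | .a => .a
  | .b => .b
  | .c => .c
  | .d => .d
  | .e => .e

/-- image of a generator -/
noncomputable def phiFun (x : J2U.Gen) : G24U.Grp := PresentedGroup.of (genMap x)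

theorem lift_phiFun : FreeGroup.lift phiFun =
    (PresentedGroup.mk (coxRelators G24U.edges ∪ {r | r ∈ G24U.extra})).comp
      (FreeGroup.map genMap) := by
  refine FreeGroup.ext_hom _ _ fun x => ?_
  simp [phiFun, PresentedGroup.of]

theorem phi_rels : ∀ r ∈ coxRelators J2U.edges ∪ {r | r ∈ J2U.extra},
    FreeGroup.lift phiFun r = 1 := by
  intro r hr
  rw [lift_phiFun, MonoidHom.comp_apply]
  refine PresentedGroup.one_of_mem ?_
  rcases hr with ⟨x, -, y, -, rfl⟩ | hr
  · left
    refine ⟨genMap x, (G24U.mem_gens _).2, genMap y, (G24U.mem_gens _).2, ?_⟩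
    have hl : coxLabel J2U.edges x y = coxLabel G24U.edges (genMap x) (genMap y) := by
      cases x <;> cases y <;> decide
    simp [hl]
  · right
    have hr' : r ∈ J2U.extra := hr
    simp only [J2U.extra, List.mem_cons, List.not_mem_nil, or_false] at hr'
    rcases hr' with rfl | rfl
    · simp [G24U.extra, genMap]
    · simp [G24U.extra, genMap]

/-- the homomorphism onto the subgroup -/
noncomputable def phi : J2U.Grp →* G24U.Grp := PresentedGroup.toGroup phi_rels

theorem phi_range : phi.range = G24U.sub := by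
  rw [MonoidHom.range_eq_map, ← PresentedGroup.closure_range_of, MonoidHom.map_closure,
    G24U.sub, MonoidHom.map_closure]
  congr 1
  simp only [Set.image_insert_eq, Set.image_singleton, ← Set.range_comp]
  ext z
  constructor
  · rintro ⟨x, rfl⟩
    simp only [Function.comp_apply, phi, PresentedGroup.toGroup.of, phiFun]
    cases x <;> simp [genMap, PresentedGroup.of]
  · intro hz
    simp only [Set.mem_insert_iff, Set.mem_singleton_iff] at hz
    rcases hz with rfl | rfl | rfl | rfl | rfl
    exacts [⟨.a, PresentedGroup.toGroup.of _⟩, ⟨.b, PresentedGroup.toGroup.of _⟩,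
      ⟨.c, PresentedGroup.toGroup.of _⟩, ⟨.d, PresentedGroup.toGroup.of _⟩,
      ⟨.e, PresentedGroup.toGroup.of _⟩]

theorem card_sub : Nat.card G24U.sub = 604800 := by
  have h := Subgroup.index_mul_card G24U.sub
  rw [G24U.index_sub, G24Order.card_and_faithful.1] at h
  exact Nat.eq_of_mul_eq_mul_left (by norm_num : 0 < 416) (h.trans (by norm_num))

theorem phi_injective : Function.Injective phi := by
  have hb : Function.Bijective phi.rangeRestrict :=
    (Nat.bijective_iff_surjective_and_card _).mpr ⟨phi.rangeRestrict_surjective, by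
      rw [J2Order.card_and_faithful.1, phi_range, card_sub]⟩
  exact fun x y h => hb.1 (Subtype.ext h)

theorem phi_val (g : Nat) (hg : g < 5) : phi (J2U.val g) = G24U.val g := by
  interval_cases g <;>
    simp [J2U.val, G24U.val, numGen, J2U.gens, G24U.gens, phi, phiFun, genMap]

theorem phi_ev : ∀ w : List Nat, (∀ g ∈ w, g < 5) → phi (ev J2U.val w) = ev G24U.val w
  | [], _ => by simp [ev]
  | g :: w, h => by
    rw [ev, ev, map_mul, phi_ev w fun x hx => h x (List.mem_cons_of_mem _ hx),
      phi_val g (h g (List.mem_cons_self ..))]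

/-- the preimage of a point stabiliser -/
noncomputable def pointStab (i : Fin G24U.data.n) : Subgroup J2U.Grp where
  carrier := {x | G24U.theModel.rho (phi x) i = i}
  one_mem' := by simp
  mul_mem' := fun {x y} hx hy => by
    show G24U.theModel.rho (phi (x * y)) i = i
    rw [map_mul, map_mul, Equiv.Perm.mul_apply, hy, hx]
  inv_mem' := fun {x} hx => by
    show G24U.theModel.rho (phi x⁻¹) i = i
    rw [map_inv, map_inv, Equiv.Perm.inv_eq_iff_eq]
    exact hx.symm

theorem mem_pointStab {i : Fin G24U.data.n} {x : J2U.Grp} :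
    x ∈ pointStab i ↔ G24U.theModel.rho (phi x) i = i := Iff.rfl

theorem rho_phi_ev (w : List Nat) (hw : ∀ g ∈ w, g < 5) (i : Fin G24U.data.n) :
    ((G24U.theModel.rho (phi (ev J2U.val w)) i : Fin G24U.data.n) : Nat) = G24U.data.run w i := by
  rw [phi_ev w hw, G24U.theModel.rho_ev, G24U.valid.perm_word w]
  intro g hg
  have h6 : G24U.data.ng = 6 := rfl
  have := hw g hg
  omega

theorem pointStab_ne_top {i : Fin G24U.data.n} {w : List Nat} (hw : ∀ g ∈ w, g < 5)
    (hne : G24U.data.run w i ≠ i) : pointStab i ≠ ⊤ := fun h => by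
  have hm : ev J2U.val w ∈ pointStab i := h ▸ Subgroup.mem_top _
  exact hne ((rho_phi_ev w hw i).symm.trans (congrArg Fin.val hm))

theorem pt100_ok : ([101, 102, 103].all fun k =>
      (nthWord J2U.data.words k).all (fun g => Nat.ble (g + 1) 5) &&
        Nat.beq (G24U.data.run (nthWord J2U.data.words k) 38) 38) = true ∧
    (List.range 5).any (fun g => !Nat.beq (G24U.data.run [g] 38) 38) = true := by
  decide +kernel

theorem pt315_ok : (stabPre.all fun w =>
      w.all (fun g => Nat.ble (g + 1) 5) && Nat.beq (G24U.data.run w 1) 1) = true ∧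
    (List.range 5).any (fun g => !Nat.beq (G24U.data.run [g] 1) 1) = true := by
  decide +kernel

theorem rep_isCoatom {i : Fin G24U.data.n} {S : Subgroup J2U.Grp} {ws : List (List Nat)}
    (hS : IsCoatom S) (hle : S ≤ Subgroup.closure {x | ∃ w ∈ ws, ev J2U.val w = x})
    (hfix : (ws.all fun w => w.all (fun g => Nat.ble (g + 1) 5) &&
      Nat.beq (G24U.data.run w i) i) = true)
    (hmv : (List.range 5).any (fun g => !Nat.beq (G24U.data.run [g] i) i) = true) :
    IsCoatom (pointStab i) := by
  have h1 : S ≤ pointStab i := by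
    refine hle.trans ?_
    rw [Subgroup.closure_le]
    rintro _ ⟨w, hw, rfl⟩
    have h := List.all_eq_true.1 hfix w hw
    simp only [Bool.and_eq_true, List.all_eq_true] at h
    exact Fin.ext ((rho_phi_ev w (fun g hg => Nat.le_of_ble_eq_true (h.1 g hg)) i).trans
      (Nat.eq_of_beq_eq_true h.2))
  obtain ⟨g, hg, hne⟩ := List.any_eq_true.1 hmv
  have h2 : pointStab i ≠ ⊤ := pointStab_ne_top (w := [g])
    (fun x hx => by rw [List.mem_singleton.1 hx]; exact List.mem_range.1 hg) (fun h => by
      rw [h] at hne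
      simp at hne)
  rwa [← (hS.le_iff_eq h2).1 h1] at hS

theorem stab_rep_isCoatom {l : Nat} (h0 : l ≠ 0) (h3 : l < 3)
    (hr : G24U.orbitReps.getD l G24U.data.n < G24U.data.n) :
    IsCoatom (pointStab ⟨G24U.orbitReps.getD l G24U.data.n, hr⟩) := by
  interval_cases l
  · exact absurd rfl h0
  · exact rep_isCoatom (i := ⟨1, hr⟩) lineStab_isCoatom le_rfl pt315_ok.1 pt315_ok.2
  · refine rep_isCoatom (i := ⟨38, hr⟩) (ws := [101, 102, 103].map (nthWord J2U.data.words))
      sub_isCoatom ?_ ?_ pt100_ok.2
    · rw [J2U.sub_eq]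
      refine Subgroup.closure_mono ?_
      rintro _ ⟨k, hk, rfl⟩
      exact ⟨_, List.mem_map_of_mem hk, rfl⟩
    · rw [List.all_map]
      exact pt100_ok.1

theorem isCoatom_pointStab {i : Fin G24U.data.n}
    (h0 : bitField (G24U.labArr.get 60 i) 0 8 ≠ 0) : IsCoatom (pointStab i) := by
  set l := bitField (G24U.labArr.get 60 i) 0 8 with hl
  have hl3 : l < 3 := by
    have h : allFrom (fun i => Nat.ble (bitField (G24U.labArr.get 60 i) 0 8).succ 3)
        G24U.data.n 0 = true := by decide +kernel
    exact Nat.le_of_ble_eq_true (allFrom_spec h i (Nat.zero_le _) (by omega))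
  have hrep : G24U.orbitReps.getD l G24U.data.n < G24U.data.n := by
    interval_cases l
    exacts [G24U.rep_lt_0, G24U.rep_lt_1, G24U.rep_lt_2]
  have hlab : bitField (G24U.labArr.get 60 (G24U.orbitReps.getD l G24U.data.n)) 0 8 = l := by
    interval_cases l
    exacts [G24U.rep_lab_0, G24U.rep_lab_1, G24U.rep_lab_2]
  have hsub : G24U.sub ≤ Subgroup.closure
      {x | ∃ k ∈ G24U.subWords, ev G24U.val (nthWord G24U.data.words k) = x} := G24U.sub_eq.le
  set r : Fin G24U.data.n := ⟨G24U.orbitReps.getD l G24U.data.n, hrep⟩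
  obtain ⟨⟨x, hx⟩, hxi⟩ : G24U.theModel.coset i ∈
      MulAction.orbit G24U.sub (G24U.theModel.coset r) := by
    rw [G24U.theModel.orbit_eq_image hsub G24U.orbits_ok hrep hlab]
    exact ⟨i, hl.symm, rfl⟩
  obtain ⟨y, rfl⟩ : x ∈ phi.range := phi_range.symm ▸ hx
  have hyi : G24U.theModel.rho (phi y) r = i := by
    apply G24U.theModel.coset_bijective.1
    rw [← G24U.theModel.smul_coset]
    exact hxi
  have key : pointStab i = (MulAut.conj y : J2U.Grp ≃* J2U.Grp).mapSubgroup (pointStab r) := by
    show pointStab i = (pointStab r).map (MulAut.conj y : J2U.Grp ≃* J2U.Grp).toMonoidHom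
    ext z
    have aux : z ∈ (pointStab r).map (MulAut.conj y : J2U.Grp ≃* J2U.Grp).toMonoidHom ↔
        y⁻¹ * z * y ∈ pointStab r := by
      rw [Subgroup.mem_map]
      constructor
      · rintro ⟨w, hw, rfl⟩
        simpa [MulAut.conj_apply, mul_assoc] using hw
      · exact fun h => ⟨_, h, by simp [MulAut.conj_apply, mul_assoc]⟩
    rw [aux, mem_pointStab, mem_pointStab, map_mul, map_mul, map_mul, map_mul, map_inv, map_inv,
      Equiv.Perm.mul_apply, Equiv.Perm.mul_apply, hyi, Equiv.Perm.inv_eq_iff_eq, hyi]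
  rw [key]
  exact ((MulAut.conj y : J2U.Grp ≃* J2U.Grp).mapSubgroup.isCoatom_iff _).2
    (stab_rep_isCoatom h0 hl3 hrep)

/-- two-point stabilisers are maximal -/
theorem comap_conj_isCoatom (x : G24U.Grp) (hx : x ∉ G24U.sub) :
    IsCoatom ((G24U.sub.map (MulAut.conj x).toMonoidHom).comap phi) := by
  set M := G24U.theModel
  set i := M.rho x ⟨0, G24U.valid.pos⟩ with hi
  have hci : M.coset i = (x : G24U.Grp ⧸ G24U.sub) := by
    rw [hi, ← M.smul_coset, M.coset_zero, MulAction.Quotient.smul_coe, smul_eq_mul, mul_one]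
  have h0 : bitField (G24U.labArr.get 60 i) 0 8 ≠ 0 := by
    intro h
    apply hx
    have hlab : allFrom (fun i => Nat.beq i 0 ||
        !Nat.beq (bitField (G24U.labArr.get 60 i) 0 8) 0) G24U.data.n 0 = true := by decide +kernel
    have hi0 := allFrom_spec hlab i (Nat.zero_le _) (by omega)
    rw [Bool.or_eq_true] at hi0
    rcases hi0 with h1 | h1
    · have e : i = ⟨0, G24U.valid.pos⟩ := Fin.ext (Nat.eq_of_beq_eq_true h1)
      rw [e, M.coset_zero, QuotientGroup.eq] at hci
      simpa using hci
    · rw [h] at h1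
      simp at h1
  have key : (G24U.sub.map (MulAut.conj x).toMonoidHom).comap phi = pointStab i := by
    ext z
    rw [Subgroup.mem_comap, mem_pointStab]
    have e1 : M.rho (phi z) i = i ↔ (phi z) • M.coset i = M.coset i := by
      rw [M.smul_coset]
      exact M.coset_bijective.1.eq_iff.symm
    rw [e1, hci, MulAction.Quotient.smul_coe, smul_eq_mul, QuotientGroup.eq]
    constructor
    · rintro ⟨h, hh, he⟩
      rw [← he]
      have : ((MulAut.conj x).toMonoidHom h * x)⁻¹ * x = h⁻¹ := by
        simp [MulEquiv.coe_toMonoidHom, MulAut.conj_apply]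
      rw [this]
      exact G24U.sub.inv_mem hh
    · intro h
      refine ⟨x⁻¹ * phi z * x, ?_, ?_⟩
      · simpa [mul_assoc] using G24U.sub.inv_mem h
      · simp [MulAut.conj_apply, mul_assoc]
  rw [key]
  exact isCoatom_pointStab h0

theorem sub_isCoatomG : IsCoatom G24U.sub := by
  have hn : G24U.data.n = 416 := rfl
  refine ⟨fun h => ?_, fun K hK => ?_⟩
  · have h2 := G24U.index_sub
    rw [h, Subgroup.index_top] at h2
    omega
  · have hsub : G24U.sub ≤ Subgroup.closure
        {x | ∃ k ∈ G24U.subWords, ev G24U.val (nthWord G24U.data.words k) = x} := G24U.sub_eq.le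
    refine (G24U.theModel.eq_or_eq_top (sizes := [1, 315, 100]) hsub G24U.orbits_ok ?_ ?_ ?_ ?_
      ?_ rfl ?_ K hK.le).resolve_left hK.ne'
    · intro i hi
      have h : allFrom (fun i => Nat.ble (bitField (G24U.labArr.get 60 i) 0 8).succ 3)
          G24U.data.n 0 = true := by decide +kernel
      exact Nat.le_of_ble_eq_true (allFrom_spec h i (Nat.zero_le _) (by omega))
    · intro l hl
      change l < 3 at hl
      interval_cases l
      exacts [G24U.rep_lt_0, G24U.rep_lt_1, G24U.rep_lt_2]
    · intro l hl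
      change l < 3 at hl
      interval_cases l
      exacts [G24U.rep_lab_0, G24U.rep_lab_1, G24U.rep_lab_2]
    · intro l hl
      change l < 3 at hl
      interval_cases l
      exacts [G24U.count_0, G24U.count_1, G24U.count_2]
    · decide +kernel
    · rw [hn]
      decide

end Cfsg.Agent.H47.G24J2
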